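import Groth.Agent.Ega2.AmpleTransfer
import Groth.Agent.Ega2.FiniteSet
import Groth.Agent.Ega2.RelAmp
import Groth.Agent.Flat2H.FamDict
import Mathlib.AlgebraicGeometry.Morphisms.Finite
import Mathlib.AlgebraicGeometry.Morphisms.QuasiFinite

/-!
# Norm data and descent of ampleness along finite surjective morphisms

For `g : X₁ ⟶ X` finite surjective and `h : Z ⟶ X` affine, a *norm datum of degree `n`* is a compatible family of
multiplicative maps `N V : Γ(X₁, g⁻¹V) → Γ(Z, h⁻¹V)`, `V` in a basis of affine opens of `X`, with `N (g^# a) = (h^# a)^n`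
and such that `N b` vanishes at `z` if `b` vanishes at all the points of `X₁` over `h z` (that `N b` is invertible at `z`
if `b` is invertible at all the points over `h z` is automatic: `NormData.mem_basicOpen_of_forall`).
If `L` is invertible on `X` and `g^*L` is ample then `h^*L` is ample (`NormData.isAmple`), also relatively to a base
(`NormData.isRelAmple`).  With `h = 𝟙` this is the descent of ampleness along `g`.
-/

set_option autoImplicit false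
set_option linter.dupNamespace false
universe u
open CategoryTheory CategoryTheory.Limits AlgebraicGeometry

namespace Groth.Agent.Ega2.H292.NormData

open Groth.Agent.Ega2.ExtCoeff Groth.Agent.Ega2.Nv Groth.Agent.Ega2.Ample Groth.Agent.Fdesc.LocGen
open Groth.Agent.Ega2.RelAmp

/-! ### Finite sets of points, relative to an open -/

/-- Avoidance on an open `U` on which `L` is ample: a finite set of points inside an open `W ≤ U` is contained in
some nonvanishing locus contained in `W`. -/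
theorem exists_nv_of_finite {X : Scheme.{u}} {L : X.Modules} {U : X.Opens} (h : AmpleOn L U) (F : Set X)
    (hF : F.Finite) (W : X.Opens) (hFW : F ⊆ W) (hWU : W ≤ U) :
    ∃ (n : ℕ) (_ : 0 < n) (s : Γ(CohB1.tensorPow L n, U)), F ⊆ nv _ s ∧ nv _ s ≤ W := by
  classical
  have h1 : CohB1.IsAmple (L.restrict U.ι) := (isAmple_restrict_ι_iff U).2 h
  have hF' : (U.ι ⁻¹' F).Finite := hF.preimage U.ι.isOpenEmbedding.injective.injOn
  obtain ⟨n, s, hs1, hs2⟩ := FiniteSet.exists_genLocus_of_finite h1 hF'.toFinset (U.ι ⁻¹ᵁ W) (by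
    intro x hx
    have hx' : x ∈ U.ι ⁻¹' F := by simpa using hx
    exact hFW hx')
  have htop : U.ι ⁻¹ᵁ U = ⊤ := by simp
  obtain ⟨t, ht⟩ := (restrictMap U.ι L).exists_of_isOpenImmersion (n := n + 1) (U := U)
    (by rw [Scheme.Opens.opensRange_ι]) h.locGen (res _ (le_top : U.ι ⁻¹ᵁ U ≤ ⊤) (sec s ⊤))
  rw [nv_res, ← genLocus_eq_nv, htop, top_inf_eq] at ht
  refine ⟨n + 1, Nat.succ_pos n, t, ?_, ?_⟩
  · intro x hx
    have hxU : x ∈ U := hWU (hFW hx)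
    have hx1 : (⟨x, hxU⟩ : U) ∈ CohB1.genLocus _ s := hs1 (by
      rw [Set.Finite.coe_toFinset]
      exact hx)
    rw [← ht] at hx1
    exact hx1
  · intro x hx
    have hxU : x ∈ U := nv_le _ t hx
    have hx1 : (⟨x, hxU⟩ : U) ∈ U.ι ⁻¹ᵁ (nv _ t) := hx
    rw [ht] at hx1
    exact hs2 hx1

/-! ### Isomorphisms -/

/-- Pullback along the identity. -/
theorem isAmple_pullback_id_iff {X : Scheme.{u}} (L : X.Modules) :
    CohB1.IsAmple ((Scheme.Modules.pullback (𝟙 X)).obj L) ↔ CohB1.IsAmple L :=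
  Groth.Agent.Flat2H.FamDict.isAmple_iff_of_iso ((Scheme.Modules.pullbackId X).app L)

theorem ampleOn_of_iso {X : Scheme.{u}} {L L' : X.Modules} (φ : L ≅ L') {U : X.Opens} (h : AmpleOn L U) :
    AmpleOn L' U := by
  rw [← isAmple_restrict_ι_iff] at h ⊢
  exact Groth.Agent.Flat2H.FamDict.isAmple_of_iso ((Scheme.Modules.restrictFunctor U.ι).mapIso φ) h

/-! ### Norm data -/

/-- The pullback of a function on `V ⊓ W`, as a function on `g⁻¹V ⊓ g⁻¹W`. -/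
noncomputable def appInf {X₁ X : Scheme.{u}} (g : X₁ ⟶ X) {V W : X.Opens} (a : Γ(X, V ⊓ W)) :
    Γ(X₁, g ⁻¹ᵁ V ⊓ g ⁻¹ᵁ W) := g.app (V ⊓ W) a

theorem ores_appInf {X₁ X : Scheme.{u}} (g : X₁ ⟶ X) {V W T : X.Opens} (a : Γ(X, V ⊓ W)) (hT : T ≤ V ⊓ W)
    (hT' : g ⁻¹ᵁ T ≤ g ⁻¹ᵁ V ⊓ g ⁻¹ᵁ W) :
    ores hT' (appInf g a) = g.app T (ores hT a) := (app_ores g hT a).symm

/-- A norm datum of degree `n` from `g : X₁ ⟶ X` to `h : Z ⟶ X`. -/
structure NormData {X₁ X Z : Scheme.{u}} (g : X₁ ⟶ X) (h : Z ⟶ X) (n : ℕ) where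
  /-- the opens on which the norm is defined -/
  P : X.Opens → Prop
  isAffineOpen : ∀ {V : X.Opens}, P V → IsAffineOpen V
  basis : ∀ (U : X.Opens) (x : X), x ∈ U → ∃ V : X.Opens, x ∈ V ∧ V ≤ U ∧ P V
  /-- the norm -/
  N : ∀ V : X.Opens, P V → (Γ(X₁, g ⁻¹ᵁ V) →* Γ(Z, h ⁻¹ᵁ V))
  N_res : ∀ {V V' : X.Opens} (hV : P V) (hV' : P V') (i : V' ≤ V) (b : Γ(X₁, g ⁻¹ᵁ V)),
    N V' hV' (ores (g.preimage_mono i) b) = ores (h.preimage_mono i) (N V hV b)
  N_app : ∀ {V : X.Opens} (hV : P V) (a : Γ(X, V)), N V hV (g.app V a) = (h.app V a : Γ(Z, h ⁻¹ᵁ V)) ^ n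
  exists_mem : ∀ {V : X.Opens} (hV : P V) (b : Γ(X₁, g ⁻¹ᵁ V)) (z : Z), h z ∈ V →
    z ∈ Z.basicOpen (N V hV b) → ∃ x₁ : X₁, g x₁ = h z ∧ x₁ ∈ X₁.basicOpen b

namespace NormData

variable {X₁ X Z : Scheme.{u}} {g : X₁ ⟶ X} {h : Z ⟶ X} {n : ℕ}

/-- `N b` is invertible at `z` if `b` is invertible at all the points over `h z`. -/
theorem mem_basicOpen_of_forall [IsFinite g] (D : NormData g h n) {V : X.Opens} (hV : D.P V)
    (b : Γ(X₁, g ⁻¹ᵁ V)) (z : Z) (hz : h z ∈ V) (hb : ∀ x₁ : X₁, g x₁ = h z → x₁ ∈ X₁.basicOpen b) :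
    z ∈ Z.basicOpen (D.N V hV b) := by
  have hcl : IsClosed (g '' ((X₁.basicOpen b : X₁.Opens) : Set X₁)ᶜ) :=
    g.isClosedMap _ (X₁.basicOpen b).isOpen.isClosed_compl
  let C : X.Opens := ⟨(g '' ((X₁.basicOpen b : X₁.Opens) : Set X₁)ᶜ)ᶜ, hcl.isOpen_compl⟩
  have hzC : h z ∈ V ⊓ C := by
    refine ⟨hz, ?_⟩
    rintro ⟨x₁, hx₁, hx₁'⟩
    exact hx₁ (hb x₁ hx₁')
  obtain ⟨V', hzV', hV', hP'⟩ := D.basis (V ⊓ C) (h z) hzC
  have hle : V' ≤ V := hV'.trans inf_le_left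
  have hle' : g ⁻¹ᵁ V' ≤ X₁.basicOpen b := by
    intro x₁ hx₁
    by_contra hcon
    exact (hV' hx₁).2 ⟨x₁, hcon, rfl⟩
  have h1 : IsUnit (ores (X₁.basicOpen_le b) b) := RingedSpace.isUnit_res_basicOpen _ b
  have h2 : IsUnit (ores (g.preimage_mono hle) b) := by
    have := h1.map (ores hle')
    rwa [ores_ores] at this
  have h3 := h2.map (D.N V' hP')
  rw [D.N_res hV hP' hle] at h3
  have h4 : Z.basicOpen (ores (h.preimage_mono hle) (D.N V hV b)) = h ⁻¹ᵁ V' := Z.basicOpen_of_isUnit h3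
  rw [basicOpen_res] at h4
  have h5 : z ∈ h ⁻¹ᵁ V' := hzV'
  rw [← h4] at h5
  exact h5.2

/-- Norms of sections of powers of the pullback of a line bundle: over an open `U` of `X`. -/
theorem exists_norm [IsFinite g] (D : NormData g h n) {L : X.Modules} {U : X.Opens} (hL : LocGen L U) {m : ℕ}
    (s : Γ(CohB1.tensorPow ((Scheme.Modules.pullback g).obj L) m, g ⁻¹ᵁ U)) :
    ∃ t : Γ(CohB1.tensorPow ((Scheme.Modules.pullback h).obj L) (n * m), h ⁻¹ᵁ U),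
      (∀ z : Z, h z ∈ U → z ∈ nv _ t → ∃ x₁ : X₁, g x₁ = h z ∧ x₁ ∈ nv _ s) ∧
      (∀ z : Z, h z ∈ U → (∀ x₁ : X₁, g x₁ = h z → x₁ ∈ nv _ s) → z ∈ nv _ t) ∧
      (∀ V : X.Opens, D.P V → V ≤ U → (∃ e : Γ(L, V), IsGen e) →
        ∃ c : Γ(Z, h ⁻¹ᵁ V), h ⁻¹ᵁ V ⊓ nv _ t = Z.basicOpen c) := by
  have hL' : ∀ x ∈ U, ∃ (V : X.Opens) (e : Γ(L, V)), x ∈ V ∧ V ≤ U ∧ IsGen e ∧ D.P V := by
    intro x hx
    obtain ⟨V, e, hxV, hVU, he⟩ := hL x hx
    obtain ⟨V', hxV', hV', hP⟩ := D.basis V x hxV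
    exact ⟨V', res L hV' e, hxV', hV'.trans hVU, he.res _, hP⟩
  -- index by all `V` in the basis together with generators
  let ι : Type u := {p : Σ V : X.Opens, Γ(L, V) // p.1 ≤ U ∧ IsGen p.2 ∧ D.P p.1}
  let V : ι → X.Opens := fun p => p.1.1
  let e : ∀ p : ι, Γ(L, V p) := fun p => p.1.2
  have hV : ∀ p, V p ≤ U := fun p => p.2.1
  have he : ∀ p, IsGen (e p) := fun p => p.2.2.1
  have hP : ∀ p, D.P (V p) := fun p => p.2.2.2
  have hcov : ∀ x ∈ U, ∃ p, x ∈ V p := by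
    intro x hx
    obtain ⟨V, e, hxV, hVU, he, hP⟩ := hL' x hx
    exact ⟨⟨⟨V, e⟩, hVU, he, hP⟩, hxV⟩
  have hcg : g ⁻¹ᵁ U ≤ ⨆ p, g ⁻¹ᵁ (V p) := by
    intro x hx
    obtain ⟨p, hp⟩ := hcov (g x) hx
    exact TopologicalSpace.Opens.mem_iSup.2 ⟨p, hp⟩
  have hch : h ⁻¹ᵁ U ≤ ⨆ p, h ⁻¹ᵁ (V p) := by
    intro x hx
    obtain ⟨p, hp⟩ := hcov (h x) hx
    exact TopologicalSpace.Opens.mem_iSup.2 ⟨p, hp⟩
  -- transition functions
  have h2 : ∀ p q, ∃ γ : Γ(X, V p ⊓ V q), res L (inf_le_left : V p ⊓ V q ≤ V p) (e p) =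
      γ • res L (inf_le_right : V p ⊓ V q ≤ V q) (e q) := fun p q =>
    ((he q).res inf_le_right).exists_eq _
  choose γ hγ using h2
  let Pg := pullMap g L
  let Ph := pullMap h L
  have hgg : ∀ p, IsGen (pow (Pg.toFun _ (e p)) m) := fun p => (Pg.isGen_toFun _ _ (he p)).pow m
  have hgh : ∀ p, IsGen (pow (Ph.toFun _ (e p)) (n * m)) := fun p => (Ph.isGen_toFun _ _ (he p)).pow _
  have h3 : ∀ p, ∃ b : Γ(X₁, g ⁻¹ᵁ (V p)), res _ (g.preimage_mono (hV p)) s = b • pow (Pg.toFun _ (e p)) m :=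
    fun p => (hgg p).exists_eq _
  choose b hb using h3
  have hrel : ∀ p q, ores (inf_le_right : g ⁻¹ᵁ V p ⊓ g ⁻¹ᵁ V q ≤ _) (b q) =
      ores (inf_le_left : g ⁻¹ᵁ V p ⊓ g ⁻¹ᵁ V q ≤ _) (b p) *
        (appInf g (γ p q)) ^ m := fun p q =>
    coef_rel s (g.preimage_mono (hV p)) (g.preimage_mono (hV q)) (hgg q) _ _ (hb p) (hb q) _
      (by
        have h4 := Pg.rel (hγ p q)
        change res _ _ _ = appInf g (γ p q) • _ at h4
        rw [res_pow, res_pow, h4, Groth.Agent.Fdesc.LocGen.smul_pow])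
  let c : ∀ p, Γ(Z, h ⁻¹ᵁ (V p)) := fun p => D.N (V p) (hP p) (b p)
  have hcrel : ∀ p q, ores (inf_le_right : h ⁻¹ᵁ V p ⊓ h ⁻¹ᵁ V q ≤ _) (c q) =
      ores (inf_le_left : h ⁻¹ᵁ V p ⊓ h ⁻¹ᵁ V q ≤ _) (c p) *
        (appInf h (γ p q)) ^ (n * m) := by
    intro p q
    -- check on a basis of `V p ⊓ V q`
    let κ : Type u := {W : X.Opens // W ≤ V p ⊓ V q ∧ D.P W}
    refine ores_ext (ι := κ) (fun W => h ⁻¹ᵁ W.1) (fun W => h.preimage_mono W.2.1) ?_ ?_
    · intro z hz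
      obtain ⟨W, hzW, hWle, hW⟩ := D.basis (V p ⊓ V q) (h z) hz
      exact TopologicalSpace.Opens.mem_iSup.2 ⟨⟨W, hWle, hW⟩, hzW⟩
    · rintro ⟨W, hWle, hW⟩
      have hWp : W ≤ V p := hWle.trans inf_le_left
      have hWq : W ≤ V q := hWle.trans inf_le_right
      have hWg : g ⁻¹ᵁ W ≤ g ⁻¹ᵁ V p ⊓ g ⁻¹ᵁ V q := g.preimage_mono hWle
      have hWh : h ⁻¹ᵁ W ≤ h ⁻¹ᵁ V p ⊓ h ⁻¹ᵁ V q := h.preimage_mono hWle
      have e1 := congrArg (ores hWg) (hrel p q)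
      rw [map_mul, map_pow, ores_ores, ores_ores, ores_appInf g _ hWle] at e1
      have e4 := congrArg (D.N W hW) e1
      rw [map_mul, map_pow, D.N_app] at e4
      have e5 := D.N_res (hP p) hW hWp (b p)
      have e6 := D.N_res (hP q) hW hWq (b q)
      change ores hWh _ = ores hWh _
      rw [map_mul, map_pow, ores_ores, ores_ores, ores_appInf h _ hWle, pow_mul]
      rw [← e5, ← e6]
      exact e4
  obtain ⟨t, ht⟩ := exists_of_coef (CohB1.tensorPow ((Scheme.Modules.pullback h).obj L) (n * m))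
    (fun p => h ⁻¹ᵁ (V p)) (fun p => h.preimage_mono (hV p)) hch
    (fun p => pow (Ph.toFun _ (e p)) (n * m)) c
    (fun p q => appInf h (γ p q) ^ (n * m))
    (fun p q => by
      have h4 := Ph.rel (hγ p q)
      change res _ _ _ = appInf h (γ p q) • _ at h4
      rw [res_pow, res_pow, h4, Groth.Agent.Fdesc.LocGen.smul_pow]) hcrel
  have hnvh : ∀ p, h ⁻¹ᵁ (V p) ⊓ nv _ t = Z.basicOpen (c p) := fun p =>
    nv_inf_of_eq_smul t (h.preimage_mono (hV p)) (hgh p) (c p) (ht p)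
  have hnvg : ∀ p, g ⁻¹ᵁ (V p) ⊓ nv _ s = X₁.basicOpen (b p) := fun p =>
    nv_inf_of_eq_smul s (g.preimage_mono (hV p)) (hgg p) (b p) (hb p)
  refine ⟨t, ?_, ?_, ?_⟩
  · intro z hz hzt
    obtain ⟨p, hp⟩ := hcov (h z) hz
    have h4 : z ∈ Z.basicOpen (c p) := by
      rw [← hnvh p]
      exact ⟨hp, hzt⟩
    obtain ⟨x₁, hx₁, hx₁'⟩ := D.exists_mem (hP p) (b p) z hp h4
    refine ⟨x₁, hx₁, ?_⟩
    rw [← hnvg p] at hx₁'
    exact hx₁'.2
  · intro z hz hall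
    obtain ⟨p, hp⟩ := hcov (h z) hz
    have h4 : z ∈ Z.basicOpen (c p) := by
      refine D.mem_basicOpen_of_forall (hP p) (b p) z hp ?_
      intro x₁ hx₁
      rw [← hnvg p]
      refine ⟨?_, hall x₁ hx₁⟩
      change g x₁ ∈ V p
      rwa [hx₁]
    rw [← hnvh p] at h4
    exact h4.2
  · rintro W hW hWU ⟨e', he'⟩
    exact ⟨c ⟨⟨W, e'⟩, hWU, he', hW⟩, hnvh ⟨⟨W, e'⟩, hWU, he', hW⟩⟩

/-- **Ampleness descends along norm data** (relative to an open `U` of `X`). -/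
theorem ampleOn [IsFinite g] [Surjective g] [IsAffineHom h] (D : NormData g h n) (hn : 0 < n) {L : X.Modules}
    {U : X.Opens} (hL : LocGen L U) (hamp : AmpleOn ((Scheme.Modules.pullback g).obj L) (g ⁻¹ᵁ U)) :
    AmpleOn ((Scheme.Modules.pullback h).obj L) (h ⁻¹ᵁ U) := by
  have hU : IsCompact (U : Set X) := by
    have h1 : g '' ((g ⁻¹ᵁ U : X₁.Opens) : Set X₁) = (U : Set X) :=
      Set.image_preimage_eq _ g.surjective
    rw [← h1]
    exact hamp.isCompact.image g.continuous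
  refine ⟨?_, h.isCompact_preimage hU, ?_⟩
  · intro z hz
    obtain ⟨V, e, hxV, hVU, he⟩ := hL (h z) hz
    exact ⟨h ⁻¹ᵁ V, (pullMap h L).toFun V e, hxV, h.preimage_mono hVU, (pullMap h L).isGen_toFun V e he⟩
  · intro z hz
    obtain ⟨V', e', hzV', hV'U, he'⟩ := hL (h z) hz
    obtain ⟨V, hzV, hVV', hPV⟩ := D.basis V' (h z) hzV'
    have hVU : V ≤ U := hVV'.trans hV'U
    have heV : IsGen (res L hVV' e') := he'.res _
    obtain ⟨m, hm, s, hs1, hs2⟩ := exists_nv_of_finite hamp (g ⁻¹' {h z}) (g.finite_preimage_singleton (h z))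
      (g ⁻¹ᵁ V) (by
        intro x₁ hx₁
        change g x₁ ∈ V
        rwa [show g x₁ = h z from hx₁]) (g.preimage_mono hVU)
    obtain ⟨t, ht1, ht2, ht3⟩ := D.exists_norm hL s
    obtain ⟨c, hc⟩ := ht3 V hPV hVU ⟨_, heV⟩
    have hle : nv _ t ≤ h ⁻¹ᵁ V := by
      intro z' hz'
      have hz'U : h z' ∈ U := nv_le _ t hz'
      obtain ⟨x₁, hx₁, h5⟩ := ht1 z' hz'U hz'
      have h6 : g x₁ ∈ V := hs2 h5
      rw [hx₁] at h6
      exact h6
    refine ⟨n * m, Nat.mul_pos hn hm, t, ?_, ?_⟩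
    · exact ht2 z hz (fun x₁ hx₁ => hs1 hx₁)
    · rw [inf_eq_right.2 hle] at hc
      rw [hc]
      exact ((D.isAffineOpen hPV).preimage h).basicOpen c

/-- **Ampleness descends along norm data.** -/
theorem isAmple [IsFinite g] [Surjective g] [IsAffineHom h] (D : NormData g h n) (hn : 0 < n) {L : X.Modules}
    (hL : PicF.IsInvertible L) (hamp : CohB1.IsAmple ((Scheme.Modules.pullback g).obj L)) :
    CohB1.IsAmple ((Scheme.Modules.pullback h).obj L) := by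
  rw [isAmple_iff_ampleOn_top] at hamp ⊢
  exact D.ampleOn hn (U := ⊤) (locGen_top_iff.2 hL) hamp

/-- **Ampleness descends along norm data**, when the target of the norm is `X` itself. -/
theorem isAmple_of_id {g : X₁ ⟶ X} [IsFinite g] [Surjective g] (D : NormData g (𝟙 X) n) (hn : 0 < n)
    {L : X.Modules} (hL : PicF.IsInvertible L) (hamp : CohB1.IsAmple ((Scheme.Modules.pullback g).obj L)) :
    CohB1.IsAmple L :=
  (isAmple_pullback_id_iff L).1 (D.isAmple hn hL hamp)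

/-- **Relative ampleness descends along norm data**, when the target of the norm is `X` itself. -/
theorem isRelAmple_of_id {g : X₁ ⟶ X} [IsFinite g] [Surjective g] (D : NormData g (𝟙 X) n) (hn : 0 < n)
    {Y : Scheme.{u}} (f : X ⟶ Y) {L : X.Modules} (hL : PicF.IsInvertible L)
    (hamp : RelAmple.IsRelAmple (g ≫ f) ((Scheme.Modules.pullback g).obj L)) :
    RelAmple.IsRelAmple f L := by
  rw [isRelAmple_iff] at hamp ⊢
  have key : ∀ V : Y.affineOpens, AmpleOn L (f ⁻¹ᵁ V.1) := fun V => by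
    have h1 := D.ampleOn hn (U := f ⁻¹ᵁ V.1) ((locGen_top_iff.2 hL).mono le_top) (hamp.2 V)
    exact ampleOn_of_iso ((Scheme.Modules.pullbackId X).app L) h1
  exact ⟨quasiCompact_iff_forall_isAffineOpen.2 fun V hV => (key ⟨V, hV⟩).isCompact, key⟩

/-- **Relative ampleness descends along norm data.** -/
theorem isRelAmple [IsFinite g] [Surjective g] [IsAffineHom h] (D : NormData g h n) (hn : 0 < n) {Y : Scheme.{u}}
    (f : X ⟶ Y) {L : X.Modules} (hL : PicF.IsInvertible L)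
    (hamp : RelAmple.IsRelAmple (g ≫ f) ((Scheme.Modules.pullback g).obj L)) :
    RelAmple.IsRelAmple (h ≫ f) ((Scheme.Modules.pullback h).obj L) := by
  rw [isRelAmple_iff] at hamp ⊢
  have key : ∀ V : Y.affineOpens, AmpleOn ((Scheme.Modules.pullback h).obj L) ((h ≫ f) ⁻¹ᵁ V.1) := fun V =>
    D.ampleOn hn (U := f ⁻¹ᵁ V.1) ((locGen_top_iff.2 hL).mono le_top) (hamp.2 V)
  exact ⟨quasiCompact_iff_forall_isAffineOpen.2 fun V hV => (key ⟨V, hV⟩).isCompact, key⟩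

end NormData

/-- Constructor of norm data with the two-sided description of the locus where `N b` is invertible. -/
def NormData.mk' {X₁ X Z : Scheme.{u}} (g : X₁ ⟶ X) [Surjective g] (h : Z ⟶ X) (n : ℕ) (P : X.Opens → Prop)
    (isAffineOpen : ∀ {V : X.Opens}, P V → IsAffineOpen V)
    (basis : ∀ (U : X.Opens) (x : X), x ∈ U → ∃ V : X.Opens, x ∈ V ∧ V ≤ U ∧ P V)
    (N : ∀ V : X.Opens, P V → (Γ(X₁, g ⁻¹ᵁ V) →* Γ(Z, h ⁻¹ᵁ V)))
    (N_res : ∀ {V V' : X.Opens} (hV : P V) (hV' : P V') (i : V' ≤ V) (b : Γ(X₁, g ⁻¹ᵁ V)),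
      N V' hV' (ores (g.preimage_mono i) b) = ores (h.preimage_mono i) (N V hV b))
    (N_app : ∀ {V : X.Opens} (hV : P V) (a : Γ(X, V)), N V hV (g.app V a) = (h.app V a : Γ(Z, h ⁻¹ᵁ V)) ^ n)
    (mem_basicOpen : ∀ {V : X.Opens} (hV : P V) (b : Γ(X₁, g ⁻¹ᵁ V)) (z : Z), h z ∈ V →
      z ∈ Z.basicOpen (N V hV b) → ∀ x₁ : X₁, g x₁ = h z → x₁ ∈ X₁.basicOpen b) : NormData g h n where
  P := P
  isAffineOpen := isAffineOpen
  basis := basis
  N := N
  N_res := N_res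
  N_app := N_app
  exists_mem hV b z hz hb := by
    obtain ⟨x₁, hx₁⟩ := g.surjective (h z)
    exact ⟨x₁, hx₁, mem_basicOpen hV b z hz hb x₁ hx₁⟩

end Groth.Agent.Ega2.H292.NormData
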